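import Mathlib
import Cfsg.Agent.PCore.Basic
import Cfsg.Agent.SLn.Basic

/-!
# A radical `p`-subgroup of `SL_n` in characteristic `p` has only scalar `p'`-centralizing elements
-/

set_option autoImplicit false

namespace CfsgLib.SLBlocks

open Matrix

variable {F : Type*} [Field F] [Fintype F] {n : ℕ} {p : ℕ} [Fact p.Prime] [CharP F p]

local notation "SL" => Matrix.SpecialLinearGroup (Fin n) F

theorem mul_v (a b : SL) (v : Fin n → F) : (a * b).1 *ᵥ v = a.1 *ᵥ (b.1 *ᵥ v) := (mulVec_mulVec v a.1 b.1).symm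

theorem one_v (v : Fin n → F) : (1 : SL).1 *ᵥ v = v := one_mulVec v

theorem inv_v (a : SL) (v : Fin n → F) : (a⁻¹).1 *ᵥ (a.1 *ᵥ v) = v := by rw [← mul_v, inv_mul_cancel, one_v]

theorem inv_v' (a : SL) (v : Fin n → F) : a.1 *ᵥ ((a⁻¹).1 *ᵥ v) = v := by rw [← mul_v, mul_inv_cancel, one_v]

/-- A `p`-group fixes a nonzero vector of every nonzero invariant subspace. -/
theorem exists_fixed (D : Subgroup SL) (hD : IsPGroup p D) (A : Submodule F (Fin n → F))
    (hA : ∀ d ∈ D, ∀ v ∈ A, d.1 *ᵥ v ∈ A) (hne : A ≠ ⊥) :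
    ∃ v ∈ A, v ≠ 0 ∧ ∀ d ∈ D, d.1 *ᵥ v = v := by
  classical
  letI : MulAction D A :=
    { smul := fun d v => ⟨d.1.1 *ᵥ v.1, hA d.1 d.2 v.1 v.2⟩
      one_smul := fun v => Subtype.ext (one_v _)
      mul_smul := fun d e v => Subtype.ext (mul_v d.1 e.1 v.1) }
  haveI : Finite A := inferInstance
  have hdvd : p ∣ Nat.card A := by
    haveI := Fintype.ofFinite A
    rw [Nat.card_eq_fintype_card, Module.card_eq_pow_finrank (K := F) (V := A)]
    obtain ⟨k, hp, hk⟩ := FiniteField.card F p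
    refine dvd_pow (hk ▸ dvd_pow_self p k.ne_zero) fun h => hne (Submodule.finrank_eq_zero.1 h)
  have h0 : (0 : A) ∈ MulAction.fixedPoints D A := fun d => Subtype.ext (show d.1.1 *ᵥ (0 : Fin n → F) = 0 from mulVec_zero _)
  obtain ⟨v, hv, hne'⟩ := hD.exists_fixed_point_of_prime_dvd_card_of_fixed_point A hdvd h0
  exact ⟨v.1, v.2, fun h => hne' (Subtype.ext h.symm), fun d hd => congrArg Subtype.val (hv ⟨d, hd⟩)⟩

/-- The contragredient map. -/
def contra : SL →* SL where
  toFun g := ⟨(g⁻¹).1ᵀ, by rw [det_transpose]; exact (g⁻¹).2⟩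
  map_one' := Subtype.ext (by show ((1 : SL)⁻¹).1ᵀ = 1; rw [inv_one]; exact transpose_one)
  map_mul' a b := Subtype.ext (by
    show ((a * b)⁻¹).1ᵀ = (a⁻¹).1ᵀ * (b⁻¹).1ᵀ
    rw [_root_.mul_inv_rev, ← transpose_mul]; rfl)

theorem dotProduct_inv (d : SL) (f v : Fin n → F) :
    ((contra d).1 *ᵥ f) ⬝ᵥ v = f ⬝ᵥ ((d⁻¹).1 *ᵥ v) := by
  show ((d⁻¹).1ᵀ *ᵥ f) ⬝ᵥ v = _
  rw [mulVec_transpose, ← dotProduct_mulVec]

/-- A proper invariant subspace is killed by a fixed functional. -/
theorem exists_fixed_functional (D : Subgroup SL) (hD : IsPGroup p D) (K : Submodule F (Fin n → F))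
    (hK : ∀ d ∈ D, ∀ v ∈ K, d.1 *ᵥ v ∈ K) (hne : K ≠ ⊤) :
    ∃ f : Fin n → F, f ≠ 0 ∧ (∀ v ∈ K, f ⬝ᵥ v = 0) ∧ ∀ d ∈ D, ∀ v, f ⬝ᵥ (d.1 *ᵥ v) = f ⬝ᵥ v := by
  classical
  let A : Submodule F (Fin n → F) :=
    { carrier := {f | ∀ v ∈ K, f ⬝ᵥ v = 0}
      zero_mem' := fun v _ => zero_dotProduct v
      add_mem' := fun {a b} ha hb v hv => by rw [add_dotProduct, ha v hv, hb v hv, add_zero]
      smul_mem' := fun c a ha v hv => by rw [smul_dotProduct, ha v hv, smul_zero] }
  have hA : A ≠ ⊥ := by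
    obtain ⟨v, -, hv⟩ := SetLike.exists_of_lt (lt_top_iff_ne_top.2 hne)
    obtain ⟨φ, hφv, hφK⟩ := Submodule.exists_dual_map_eq_bot_of_notMem hv inferInstance
    let f : Fin n → F := fun i => φ (Pi.single i 1)
    have hf : ∀ w, f ⬝ᵥ w = φ w := by
      intro w
      conv_rhs => rw [← Finset.univ_sum_single w]
      rw [map_sum, dotProduct]
      refine Finset.sum_congr rfl fun i _ => ?_
      rw [show (Pi.single i (w i) : Fin n → F) = w i • Pi.single i 1 by
        rw [← Pi.single_smul', smul_eq_mul, mul_one], map_smul, smul_eq_mul, mul_comm]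
    intro h
    have hfA : f ∈ A := fun w hw => by
      rw [hf]
      exact (Submodule.mem_bot F).1 (hφK ▸ Submodule.mem_map_of_mem hw)
    rw [h, Submodule.mem_bot] at hfA
    exact hφv (by rw [← hf, hfA, zero_dotProduct])
  obtain ⟨f, hfA, hf0, hfix⟩ := exists_fixed (D.map contra) (hD.map _) A (by
    rintro _ ⟨d, hd, rfl⟩ f hf v hv
    rw [dotProduct_inv]
    exact hf _ (hK _ (inv_mem hd) v hv)) hA
  refine ⟨f, hf0, hfA, fun d hd v => ?_⟩
  have h := congrArg (fun z => z ⬝ᵥ v) (hfix (contra d⁻¹) ⟨d⁻¹, inv_mem hd, rfl⟩)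
  rwa [dotProduct_inv, inv_inv] at h

/-- In a radical `p`-subgroup `D ≠ 1`, centralizing `p'`-elements are central. -/
theorem mem_center_of_radical (D : Subgroup SL) (hD : IsPGroup p D) (hne : D ≠ ⊥)
    (hrad : (Cfsg.pCore p (Subgroup.normalizer (D : Set SL))).map (Subgroup.normalizer (D : Set SL)).subtype = D)
    {x : SL} (hx : ∀ d ∈ D, d * x = x * d) (hxp : ¬ p ∣ orderOf x) : x ∈ Subgroup.center SL := by
  classical
  have hp : p.Prime := Fact.out
  set V := Fin n → F
  let R : Submodule F V := Submodule.span F {z | ∃ d ∈ D, ∃ v : V, z = d.1 *ᵥ v - v}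
  let W : Submodule F V :=
    { carrier := {v | ∀ d ∈ D, d.1 *ᵥ v = v}
      zero_mem' := fun d _ => mulVec_zero _
      add_mem' := fun {a b} ha hb d hd => by rw [mulVec_add, ha d hd, hb d hd]
      smul_mem' := fun c a ha d hd => by rw [mulVec_smul, ha d hd] }
  have hdiff : ∀ d ∈ D, ∀ v : V, d.1 *ᵥ v - v ∈ R := fun d hd v => Submodule.subset_span ⟨d, hd, v, rfl⟩
  have hDR : ∀ d ∈ D, ∀ r ∈ R, d.1 *ᵥ r ∈ R := fun d hd r hr => by
    have := R.add_mem (hdiff d hd r) hr
    rwa [sub_add_cancel] at this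
  -- a common fixed vector inside the commutator space
  have hR : R ≠ ⊥ := by
    intro h
    apply hne
    rw [eq_bot_iff]
    intro d hd
    refine Subgroup.mem_bot.2 (Subtype.ext (Matrix.ext_of_mulVec_single fun j => ?_))
    have := h ▸ hdiff d hd (Pi.single j 1)
    rw [Submodule.mem_bot, sub_eq_zero] at this
    rw [this, one_v]
  obtain ⟨w, hwR, hw0, hwW⟩ := exists_fixed D hD R hDR hR
  -- the transvections from `V / R` to `W ⊓ R` centralize `D`
  set N := Subgroup.normalizer (D : Set SL) with hN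
  have hcomm : ∀ f u : V, (∀ r ∈ R, f ⬝ᵥ r = 0) → u ∈ W → u ∈ R → ∀ v, (f ⬝ᵥ v) • (x.1 *ᵥ u) =
      (f ⬝ᵥ (x.1 *ᵥ v)) • u := by
    intro f u hf huW huR v
    have hdet : (1 + vecMulVec u f).det = 1 := by
      rw [Matrix.vecMulVec_eq Unit, Matrix.det_one_add_replicateCol_mul_replicateRow, hf u huR, add_zero]
    let g : SL := ⟨1 + vecMulVec u f, hdet⟩
    -- the group of all such transvections
    let Bs : Subgroup SL :=
      { carrier := {g | (∀ r ∈ R, g.1 *ᵥ r = r) ∧ ∀ v, g.1 *ᵥ v - v ∈ W ⊓ R}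
        one_mem' := ⟨fun r _ => one_v r, fun v => by rw [one_v, sub_self]; exact Submodule.zero_mem _⟩
        mul_mem' := fun {a b} ha hb => ⟨fun r hr => by
            rw [mul_v, hb.1 r hr, ha.1 r hr], fun v => by
            have := (W ⊓ R).add_mem (ha.2 (b.1 *ᵥ v)) (hb.2 v)
            rw [sub_add_sub_cancel] at this
            rwa [mul_v]⟩
        inv_mem' := fun {a} ha => by
          refine ⟨fun r hr => ?_, fun v => ?_⟩
          · conv_lhs => rw [← ha.1 r hr]
            exact inv_v a r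
          · have := (W ⊓ R).neg_mem (ha.2 ((a⁻¹).1 *ᵥ v))
            rwa [neg_sub, inv_v'] at this }
    have hgB : g ∈ Bs := by
      refine ⟨fun r hr => ?_, fun v => ?_⟩
      · show (1 + vecMulVec u f) *ᵥ r = r
        rw [add_mulVec, one_mulVec, vecMulVec_mulVec, hf r hr]
        simp
      · show (1 + vecMulVec u f) *ᵥ v - v ∈ _
        rw [add_mulVec, one_mulVec, add_sub_cancel_left, vecMulVec_mulVec, op_smul_eq_smul]
        exact ⟨W.smul_mem _ huW, R.smul_mem _ huR⟩
    have hBC : ∀ a ∈ Bs, ∀ d ∈ D, d * a = a * d := fun a ha d hd => by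
      refine Subtype.ext (Matrix.ext_of_mulVec_single fun j => ?_)
      set v : V := Pi.single j 1
      rw [mul_v, mul_v]
      have h1 : d.1 *ᵥ (a.1 *ᵥ v - v) = a.1 *ᵥ v - v := (ha.2 v).1 d hd
      have h2 : a.1 *ᵥ (d.1 *ᵥ v - v) = d.1 *ᵥ v - v := ha.1 _ (hdiff d hd v)
      rw [mulVec_sub, sub_eq_iff_eq_add] at h1 h2
      rw [h1, h2]
      abel
    have hBN : Bs ≤ N := fun a ha => by
      rw [hN, Subgroup.mem_normalizer_iff]
      intro d
      constructor
      · intro hd; rw [← hBC a ha d hd, mul_inv_cancel_right]; exact hd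
      · intro hd
        have h' := hBC a⁻¹ (inv_mem ha) _ hd
        have e : a * d * a⁻¹ = d := mul_right_cancel (h'.trans (show a⁻¹ * (a * d * a⁻¹) = d * a⁻¹ by group))
        rwa [e] at hd
    have hBp : IsPGroup p Bs := fun a => by
      refine ⟨1, Subtype.ext (Subtype.ext (Matrix.ext_of_mulVec_single fun j => ?_))⟩
      set v : V := Pi.single j 1
      have hk : ∀ k : ℕ, (a.1 ^ k).1 *ᵥ v = v + (k : F) • (a.1.1 *ᵥ v - v) := by
        intro k
        induction k with
        | zero => simp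
        | succ k ih =>
          rw [pow_succ', mul_v, ih, mulVec_add, mulVec_smul,
            a.2.1 _ (a.2.2 v).2, Nat.cast_succ, add_smul, one_smul]
          abel
      rw [SubgroupClass.coe_pow, pow_one, hk, CharP.cast_eq_zero, zero_smul, add_zero, OneMemClass.coe_one,
        one_v]
    have hnorm : (Bs.subgroupOf N).Normal := by
      refine ⟨fun a ha c => ?_⟩
      rw [Subgroup.mem_subgroupOf] at ha ⊢
      set s := (c : SL) with hs
      have hsD : ∀ d ∈ D, s⁻¹ * d * s ∈ D := fun d hd => by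
        have := (Subgroup.mem_normalizer_iff.1 (inv_mem c.2) d).1 hd
        simpa using this
      have hsD' : ∀ d ∈ D, s * d * s⁻¹ ∈ D := fun d hd => (Subgroup.mem_normalizer_iff.1 c.2 d).1 hd
      have hR' : ∀ t : SL, (∀ d ∈ D, t * d * t⁻¹ ∈ D) → ∀ r ∈ R, t.1 *ᵥ r ∈ R := by
        intro t ht r hr
        induction hr using Submodule.span_induction with
        | mem z hz =>
          obtain ⟨d, hd, v, rfl⟩ := hz
          have := hdiff _ (ht d hd) (t.1 *ᵥ v)
          rwa [← mul_v, inv_mul_cancel_right, mul_v, ← mulVec_sub] at this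
        | zero => rw [mulVec_zero]; exact R.zero_mem
        | add a b _ _ ha hb => rw [mulVec_add]; exact R.add_mem ha hb
        | smul k a _ ha => rw [mulVec_smul]; exact R.smul_mem k ha
      have hW' : ∀ v ∈ W, s.1 *ᵥ v ∈ W := fun v hv d hd => by
        rw [← mul_v, show d * s = s * (s⁻¹ * d * s) by group,
          mul_v, hv _ (hsD d hd)]
      have hss : ∀ v : V, s.1 *ᵥ ((s⁻¹).1 *ᵥ v) = v := inv_v' s
      show s * a.1 * s⁻¹ ∈ Bs
      refine ⟨fun r hr => ?_, fun v => ?_⟩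
      · rw [mul_v, mul_v,
          ha.1 _ (hR' s⁻¹ (fun d hd => by rw [inv_inv]; exact hsD d hd) r hr), hss]
      · rw [mul_v, mul_v]
        conv => arg 2; arg 2; rw [← hss v]
        rw [← mulVec_sub]
        exact ⟨hW' _ (ha.2 _).1, hR' s hsD' _ (ha.2 _).2⟩
    have hgD : g ∈ D := by
      rw [← hrad]
      exact ⟨⟨g, hBN hgB⟩, CfsgLib.PCore.le_pCore hnorm
        (hBp.of_equiv (Subgroup.subgroupOfEquivOfLe hBN).symm) (Subgroup.mem_subgroupOf.2 hgB), rfl⟩
    have h := congrArg (fun z : SL => z.1 *ᵥ v) (hx g hgD)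
    change (g * x).1 *ᵥ v = (x * g).1 *ᵥ v at h
    rw [mul_v, mul_v] at h
    change (1 + vecMulVec u f) *ᵥ (x.1 *ᵥ v) = x.1 *ᵥ ((1 + vecMulVec u f) *ᵥ v) at h
    simp only [add_mulVec, one_mulVec, vecMulVec_mulVec, mulVec_add, op_smul_eq_smul, mulVec_smul] at h
    exact (add_left_cancel h).symm
  -- the scalar
  obtain ⟨f₀, hf₀, -, hf₀fix⟩ := exists_fixed_functional D hD ⊥ (fun d _ v hv => by
    rw [(Submodule.mem_bot F).1 hv, mulVec_zero]; exact Submodule.zero_mem _)
    (fun h => hw0 (by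
      have : w ∈ (⊤ : Submodule F V) := Submodule.mem_top
      rw [← h] at this; exact (Submodule.mem_bot F).1 this))
  have hkill : ∀ f : V, (∀ d ∈ D, ∀ v, f ⬝ᵥ (d.1 *ᵥ v) = f ⬝ᵥ v) → ∀ r ∈ R, f ⬝ᵥ r = 0 := by
    intro f hf r hr
    induction hr using Submodule.span_induction with
    | mem z hz => obtain ⟨d, hd, v, rfl⟩ := hz; rw [dotProduct_sub, hf d hd, sub_self]
    | zero => exact dotProduct_zero f
    | add a b _ _ ha hb => rw [dotProduct_add, ha, hb, add_zero]
    | smul k a _ ha => rw [dotProduct_smul, ha, smul_zero]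
  obtain ⟨i, hi⟩ := Function.ne_iff.1 hf₀
  set v₀ : V := Pi.single i (f₀ i)⁻¹ with hv₀
  have hfv : f₀ ⬝ᵥ v₀ = 1 := by rw [hv₀, dotProduct_single]; exact mul_inv_cancel₀ hi
  set c := f₀ ⬝ᵥ (x.1 *ᵥ v₀) with hc
  have hxw : x.1 *ᵥ w = c • w := by
    have := hcomm f₀ w (hkill f₀ hf₀fix) hwW hwR v₀
    rwa [hfv, one_smul, ← hc] at this
  -- `Y` is the image and `K` the kernel of `x - c`
  set T : V →ₗ[F] V := x.1.mulVecLin - c • LinearMap.id with hT
  have hTa : ∀ v, T v = x.1 *ᵥ v - c • v := fun v => rfl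
  have hYR : ∀ v, T v ∈ R := by
    intro v
    by_contra hnot
    obtain ⟨φ, hφv, hφR⟩ := Submodule.exists_dual_map_eq_bot_of_notMem hnot inferInstance
    let f : V := fun j => φ (Pi.single j 1)
    have hf : ∀ z, f ⬝ᵥ z = φ z := by
      intro z
      conv_rhs => rw [← Finset.univ_sum_single z]
      rw [map_sum, dotProduct]
      refine Finset.sum_congr rfl fun j _ => ?_
      rw [show (Pi.single j (z j) : V) = z j • Pi.single j 1 by
        rw [← Pi.single_smul', smul_eq_mul, mul_one], map_smul, smul_eq_mul, mul_comm]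
    have h := hcomm f w (fun r hr => by
      rw [hf]; exact (Submodule.mem_bot F).1 (hφR ▸ Submodule.mem_map_of_mem hr)) hwW hwR v
    rw [hxw, smul_smul, ← sub_eq_zero, ← sub_smul, smul_eq_zero] at h
    apply hφv
    rw [← hf, hTa, dotProduct_sub, dotProduct_smul, smul_eq_mul, mul_comm]
    linear_combination -(h.resolve_right hw0)
  have hord : x.1 ^ orderOf x = 1 := by
    exact congrArg Subtype.val (pow_orderOf_eq_one x)
  have hsemi : ∀ v, T (T v) = 0 → T v = 0 := by
    intro v hv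
    set z := T v with hz
    have hxv : x.1 *ᵥ v = c • v + z := by rw [hz, hTa]; abel
    have hxz : x.1 *ᵥ z = c • z := by rwa [hTa, sub_eq_zero] at hv
    have hpow : ∀ m : ℕ, (x.1 ^ (m + 1)) *ᵥ v = c ^ (m + 1) • v + (((m + 1 : ℕ) : F) * c ^ m) • z := by
      intro m
      induction m with
      | zero => simp [hxv]
      | succ m ih =>
        rw [pow_succ', ← mulVec_mulVec, ih, mulVec_add, mulVec_smul, mulVec_smul, hxv, hxz]
        push_cast
        module
    have hwpow : ∀ m : ℕ, (x.1 ^ m) *ᵥ w = c ^ m • w := by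
      intro m
      induction m with
      | zero => simp
      | succ m ih => rw [pow_succ', ← mulVec_mulVec, ih, mulVec_smul, hxw, smul_smul, pow_succ]
    have hcm : c ^ orderOf x = 1 := by
      have h := hwpow (orderOf x)
      rw [hord, one_mulVec] at h
      exact (smul_left_injective F hw0 (by simpa using h.symm))
    obtain ⟨m, hm⟩ : ∃ m, orderOf x = m + 1 := ⟨orderOf x - 1, by have := orderOf_pos x; omega⟩
    have h := hpow m
    rw [← hm, hord, one_mulVec, hcm, one_smul, left_eq_add, smul_eq_zero, mul_eq_zero] at h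
    rcases h with (h | h) | h
    · exact absurd ((CharP.cast_eq_zero_iff F p _).1 h) hxp
    · refine absurd (pow_eq_zero_iff'.1 h).1 fun hc0 => ?_
      rw [hc0, hm, zero_pow (Nat.succ_ne_zero m)] at hcm
      exact zero_ne_one hcm
    · exact h
  have htop : LinearMap.ker T ⊔ LinearMap.range T = ⊤ := by
    refine Submodule.eq_top_of_disjoint _ _ ?_ ?_
    · rw [← LinearMap.finrank_range_add_finrank_ker T, add_comm]
    · rw [Submodule.disjoint_def]
      rintro _ hker ⟨v, rfl⟩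
      exact hsemi v (LinearMap.mem_ker.1 hker)
  have hkerinv : ∀ d ∈ D, ∀ v ∈ LinearMap.ker T, d.1 *ᵥ v ∈ LinearMap.ker T := by
    intro d hd v hv
    rw [LinearMap.mem_ker, hTa] at hv ⊢
    rw [← mul_v, ← hx d hd, mul_v,
      ← mulVec_smul, ← mulVec_sub, hv, mulVec_zero]
  have hker : LinearMap.ker T = ⊤ := by
    by_contra hk
    obtain ⟨f, hf0, hfK, hffix⟩ := exists_fixed_functional D hD _ hkerinv hk
    refine hf0 (funext fun j => ?_)
    have hall : ∀ v, f ⬝ᵥ v = 0 := by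
      intro v
      obtain ⟨a, ha, _, ⟨b, rfl⟩, rfl⟩ := Submodule.mem_sup.1 (htop ▸ Submodule.mem_top (x := v))
      rw [dotProduct_add, hfK a ha, hkill f hffix _ (hYR b), add_zero]
    simpa using hall (Pi.single j 1)
  have hscal : ∀ v, x.1 *ᵥ v = c • v := fun v => by
    have : v ∈ LinearMap.ker T := hker ▸ Submodule.mem_top
    rwa [LinearMap.mem_ker, hTa, sub_eq_zero] at this
  rw [Subgroup.mem_center_iff]
  intro g
  refine Subtype.ext (Matrix.ext_of_mulVec_single fun j => ?_)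
  rw [mul_v, mul_v, hscal, hscal,
    mulVec_smul]

end CfsgLib.SLBlocks
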