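import Cfsg.Agent.SLBlocks.Generic
import Cfsg.Agent.S2421
import Cfsg.Agent.S2424
import Cfsg.Agent.Clifford.Basic
import Cfsg.Agent.Blocks.CentralSupport

/-!
# The Steinberg character of `SL_n`
-/

set_option autoImplicit false

namespace CfsgLib.SLBlocks

open Matrix Cfsg CfsgLib.SLn.Unip CfsgLib.CharBasics

/-- The product formula at the partition with all parts one. -/
theorem degree_formula (q n : ℕ) :
    (∏ j ∈ Finset.range n, ((∑ l ∈ Finset.range (j + 1), q ^ l : ℕ) : ℂ)) *
      ∏ j ∈ Finset.range n, ∏ i ∈ Finset.range j,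
        (((∑ l ∈ Finset.range (1 + j), q ^ l : ℕ) : ℂ) - ((∑ l ∈ Finset.range (1 + i), q ^ l : ℕ) : ℂ)) =
      (q : ℂ) ^ (n.choose 3 + n.choose 2) *
        ∏ i ∈ Finset.range n, ∏ j ∈ Finset.range (1 + i), ((∑ l ∈ Finset.range (j + 1), q ^ l : ℕ) : ℂ) := by
  set Q : ℕ → ℂ := fun r => ((∑ l ∈ Finset.range r, q ^ l : ℕ) : ℂ) with hQ
  have hdiff : ∀ i d : ℕ, Q (i + d) - Q i = (q : ℂ) ^ i * Q d := by
    intro i d
    simp only [hQ]
    push_cast
    rw [Finset.sum_range_add, add_sub_cancel_left, Finset.mul_sum]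
    exact Finset.sum_congr rfl fun l _ => by rw [pow_add]
  change (∏ j ∈ Finset.range n, Q (j + 1)) * ∏ j ∈ Finset.range n, ∏ i ∈ Finset.range j, (Q (1 + j) - Q (1 + i)) =
    (q : ℂ) ^ (n.choose 3 + n.choose 2) * ∏ i ∈ Finset.range n, ∏ j ∈ Finset.range (1 + i), Q (j + 1)
  induction n with
  | zero => simp
  | succ n ih =>
    have hlast : ∏ i ∈ Finset.range n, (Q (1 + n) - Q (1 + i)) =
        (q : ℂ) ^ (n + 1).choose 2 * ∏ j ∈ Finset.range n, Q (j + 1) := by
      rw [Finset.prod_congr rfl (g := fun i => (q : ℂ) ^ (1 + i) * Q (n - i)) fun i hi => by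
        rw [show 1 + n = (1 + i) + (n - i) by have := Finset.mem_range.1 hi; omega, hdiff]]
      rw [Finset.prod_mul_distrib, Finset.prod_pow_eq_pow_sum, ← Finset.prod_range_reflect (fun j => Q (j + 1)) n]
      congr 1
      · congr 1
        clear ih
        induction n with
        | zero => simp
        | succ n ih => rw [Finset.sum_range_succ, ih, show (n + 1 + 1).choose 2 = (n + 1).choose 1 + (n + 1).choose 2 from Nat.choose_succ_succ' (n + 1) 1, Nat.choose_one_right]; omega
      · exact Finset.prod_congr rfl fun j hj => by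
          rw [show n - 1 - j + 1 = n - j by have := Finset.mem_range.1 hj; omega]
    rw [Finset.prod_range_succ (fun j => ∏ i ∈ Finset.range j, (Q (1 + j) - Q (1 + i))), hlast,
      Finset.prod_range_succ (fun i => ∏ j ∈ Finset.range (1 + i), Q (j + 1)), Nat.add_comm 1 n]
    have e : (n + 1).choose 3 + (n + 1).choose 2 = (n.choose 3 + n.choose 2) + (n + 1).choose 2 := by
      rw [show (n + 1).choose 3 = n.choose 2 + n.choose 3 from Nat.choose_succ_succ' n 2]; omega
    rw [e, pow_add (q : ℂ) (n.choose 3 + n.choose 2)]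
    linear_combination ((q : ℂ) ^ (n + 1).choose 2 * ∏ j ∈ Finset.range (n + 1), Q (j + 1)) * ih

theorem prod_filter_lt (n : ℕ) (h : ℕ → ℕ → ℂ) :
    ∏ i : Fin n, ∏ j ∈ Finset.univ.filter (fun j : Fin n => i < j), h i j =
      ∏ j ∈ Finset.range n, ∏ i ∈ Finset.range j, h i j := by
  simp only [Finset.prod_filter]
  rw [Finset.prod_comm, ← Fin.prod_univ_eq_prod_range (fun j => ∏ i ∈ Finset.range j, h i j)]
  refine Finset.prod_congr rfl fun j _ => ?_
  have e : ∀ i : Fin n, (if i < j then h i j else 1) = (fun k : ℕ => if k < (j : ℕ) then h k j else 1) i := fun i => rfl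
  rw [Finset.prod_congr rfl fun i _ => e i, Fin.prod_univ_eq_prod_range (fun k : ℕ => if k < (j : ℕ) then h k j else 1),
    ← Finset.prod_filter]
  congr 1
  ext k
  simp only [Finset.mem_filter, Finset.mem_range]
  have := j.isLt
  omega

variable {F : Type*} [Field F] [Fintype F] {n : ℕ} {p : ℕ} [Fact p.Prime] [CharP F p] {M : Ideal AlgInt}

/-- The Steinberg character of `GL_n` at the identity. -/
theorem steinberg_one :
    unipotentCharacterGL n F (fun _ => 1) 1 = ((Fintype.card F ^ n.choose 2 : ℕ) : ℂ) := by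
  set q := Fintype.card F
  have h := Cfsg.Agent.S2424.result (F := F) (q := q) rfl (fun _ : Fin n => 1) monotone_const (by simp)
  rw [prod_filter_lt n (fun i j => ((∑ l ∈ Finset.range (1 + j), q ^ l : ℕ) : ℂ) -
      ((∑ l ∈ Finset.range (1 + i), q ^ l : ℕ) : ℂ)), degree_formula,
    Fin.prod_univ_eq_prod_range (fun i => ∏ j ∈ Finset.range (1 + i), ((∑ l ∈ Finset.range (j + 1), q ^ l : ℕ) : ℂ)),
    show n * (n - 1) * (n - 2) / 6 = n.choose 3 by
      rw [Nat.choose_eq_descFactorial_div_factorial]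
      simp [Nat.descFactorial, Nat.factorial]
      ring_nf] at h
  have hq : (q : ℂ) ≠ 0 := Nat.cast_ne_zero.2 Fintype.card_ne_zero
  have hP : ∏ i ∈ Finset.range n, ∏ j ∈ Finset.range (1 + i), ((∑ l ∈ Finset.range (j + 1), q ^ l : ℕ) : ℂ) ≠ 0 := by
    refine Finset.prod_ne_zero_iff.2 fun i _ => Finset.prod_ne_zero_iff.2 fun j _ => Nat.cast_ne_zero.2 ?_
    rw [Finset.sum_range_succ']
    simp
  have h2 := mul_right_cancel₀ hP h
  rw [pow_add, mul_comm ((q : ℂ) ^ n.choose 3)] at h2
  push_cast
  exact mul_right_cancel₀ (pow_ne_zero _ hq) h2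

/-- The Steinberg character of `GL_n` is trivial on central elements. -/
theorem unipotent_central {G' : GL (Fin n) F} (hG : G' ∈ Subgroup.center (GL (Fin n) F))
    (hd : ∀ i j : Fin n, j < i → (G' : Matrix (Fin n) (Fin n) F) i j = 0) :
    unipotentCharacterGL n F (fun _ => 1) G' = unipotentCharacterGL n F (fun _ => 1) 1 := by
  simp only [unipotentCharacterGL, fixedPointCharacter]
  refine Finset.sum_congr rfl fun κ _ => ?_
  split_ifs with h
  · congr 3
    set H := parabolicGL n F fun i => 1 + i.val - (κ i).val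
    have e : MulAction.fixedBy (GL (Fin n) F ⧸ H) G' = MulAction.fixedBy (GL (Fin n) F ⧸ H) (1 : GL (Fin n) F) := by
      ext x
      obtain ⟨g, rfl⟩ := QuotientGroup.mk_surjective x
      simp only [MulAction.mem_fixedBy, one_smul, iff_true]
      show ((G' * g : GL (Fin n) F) : GL (Fin n) F ⧸ H) = _
      rw [← Subgroup.mem_center_iff.1 hG g, QuotientGroup.eq, show (g * G')⁻¹ * g = G'⁻¹ by group]
      exact inv_mem (CfsgLib.GLFlag.triangular_mem _ hd)
    rw [e]
  · rfl

/-- An irreducible character of `SL_n` that vanishes at every `p`-singular element, trivial on the centre. -/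
theorem exists_vanish_central (hn : 2 ≤ n) (hM : IsPModular p M) :
    ∃ χ : IrrCharacter (Matrix.SpecialLinearGroup (Fin n) F), Vanish p χ ∧
      ∀ z ∈ Subgroup.center (Matrix.SpecialLinearGroup (Fin n) F),
        (χ : Matrix.SpecialLinearGroup (Fin n) F → ℂ) z = (χ : Matrix.SpecialLinearGroup (Fin n) F → ℂ) 1 := by
  classical
  haveI : NeZero n := ⟨by omega⟩
  haveI := Fintype.ofFinite (GL (Fin n) F)
  let St : IrrCharacter (GL (Fin n) F) :=
    ⟨_, Cfsg.Agent.S2421.result (F := F) (fun _ : Fin n => 1) monotone_const (by simp)⟩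
  have hdeg : charDegree (St : GL (Fin n) F → ℂ) = Fintype.card F ^ (n * (n - 1) / 2) := by
    have h := apply_one (isCharacter_of_irr St.2)
    have h2 : (St : GL (Fin n) F → ℂ) 1 = ((Fintype.card F ^ n.choose 2 : ℕ) : ℂ) := steinberg_one
    rw [h2, Nat.cast_inj, Nat.choose_two_right] at h
    exact h.symm
  have hStv : ∀ g : GL (Fin n) F, p ∣ orderOf g → (St : GL (Fin n) F → ℂ) g = 0 := by
    intro g hg
    refine CfsgLib.Blocks.apply_eq_zero_of_full hM ?_ hg
    obtain ⟨P⟩ : Nonempty (Sylow p (GL (Fin n) F)) := inferInstance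
    have h := CfsgLib.SLn.card_sylow_GL F p n P
    rw [P.card_eq_multiplicity, ← hdeg] at h
    show _ ≤ (charDegree (St : GL (Fin n) F → ℂ)).factorization p
    rw [← h, (Fact.out : p.Prime).factorization_pow, Finsupp.single_eq_same]
  set ι : Matrix.SpecialLinearGroup (Fin n) F →* GL (Fin n) F := Matrix.SpecialLinearGroup.toGL
  have hinj : Function.Injective ι := fun a b h => Subtype.ext (congrArg Units.val h)
  set N := ι.range with hN
  have hdet : ∀ g : GL (Fin n) F, g ∈ N ↔ (g : Matrix (Fin n) (Fin n) F).det = 1 := by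
    intro g
    constructor
    · rintro ⟨s, rfl⟩; exact s.2
    · intro h; exact ⟨⟨g.1, h⟩, Units.ext rfl⟩
  haveI hNn : N.Normal := ⟨fun a ha g => by
    rw [hdet] at ha ⊢
    rw [Units.val_mul, Units.val_mul, Matrix.det_mul, Matrix.det_mul, ha, mul_one, ← Matrix.det_mul, ← Units.val_mul,
      mul_inv_cancel, Units.val_one, Matrix.det_one]⟩
  haveI := Fintype.ofFinite N
  haveI := Fintype.ofFinite (upperUni F n)
  let e : Matrix.SpecialLinearGroup (Fin n) F ≃* N := MonoidHom.ofInjective hinj
  obtain ⟨θ, hθ⟩ := exists_restrict_constituent N St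
  have hθ' : classInner (fun x : N => (St : GL (Fin n) F → ℂ) x) (θ : N → ℂ) ≠ 0 := by
    rw [classInner_comm]; simpa using hθ
  obtain ⟨c, hc⟩ := classInner_characters_nat (CfsgLib.CharBasics.isCharacter_restrict (isCharacter_of_irr St.2) N)
    (isCharacter_of_irr θ.2)
  set orb := Finset.univ.image (fun g : GL (Fin n) F => CfsgLib.Clifford.conjFun g (θ : N → ℂ)) with horb
  have hres : ∀ x : N, (St : GL (Fin n) F → ℂ) x = (c : ℂ) * ∑ φ ∈ orb, φ x := by
    intro x
    have h := congrFun (CfsgLib.Clifford.restrict_eq_orbit_sum St.2 θ.2 hθ') x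
    rw [hc, Pi.smul_apply, smul_eq_mul, Finset.sum_apply] at h
    exact h
  -- all constituents have the same sum over `U`
  have hsumU : ∀ φ ∈ orb, ∑ u : upperUni F n, φ (e u) = ∑ u : upperUni F n, (θ : N → ℂ) (e u) := by
    intro φ hφ
    obtain ⟨g, -, rfl⟩ := Finset.mem_image.1 hφ
    set a : F := (g : Matrix (Fin n) (Fin n) F).det with ha
    have ha0 : a ≠ 0 := g.det_ne_zero
    let δ : Fin n → F := fun i => if i = 0 then a else 1
    have hδ : (Matrix.diagonal δ).det = a := by
      rw [Matrix.det_diagonal, Finset.prod_ite_eq' Finset.univ 0 (fun _ => a), if_pos (Finset.mem_univ _)]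
    let d : GL (Fin n) F := Matrix.GeneralLinearGroup.mkOfDetNeZero (Matrix.diagonal δ) (by rw [hδ]; exact ha0)
    have hd : ((d : GL (Fin n) F) : Matrix (Fin n) (Fin n) F).det = a := hδ
    have hs : g * d⁻¹ ∈ N := by
      rw [hdet]
      have h1 := congrArg (fun z : GL (Fin n) F => (z : Matrix (Fin n) (Fin n) F).det)
        (inv_mul_cancel_right g d)
      simp only [Units.val_mul, Matrix.det_mul] at h1
      rw [hd, ← ha] at h1
      rw [Units.val_mul, Matrix.det_mul]
      exact (mul_eq_right₀ ha0).1 h1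
    have hdU : ∀ u : upperUni F n, ∃ v : upperUni F n, ι v = d * ι u * d⁻¹ := by
      intro u
      have hm : d * ι u * d⁻¹ ∈ N := hNn.conj_mem _ ⟨_, rfl⟩ d
      obtain ⟨v, hv⟩ := hm
      refine ⟨⟨v, ?_, ?_⟩, hv⟩
      all_goals
        have h1 : v.1 * Matrix.diagonal δ = Matrix.diagonal δ * u.1.1 := by
          have h2 := congrArg Units.val (show ι v * d = d * ι u by rw [hv]; group)
          exact h2
      · intro i j hij
        have h2 := congrFun (congrFun h1 i) j
        rw [Matrix.mul_diagonal, Matrix.diagonal_mul, u.2.1 i j hij, mul_zero] at h2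
        refine (mul_eq_zero.1 h2).resolve_right ?_
        simp only [δ]; split_ifs
        · exact ha0
        · exact one_ne_zero
      · intro i
        have h2 := congrFun (congrFun h1 i) i
        rw [Matrix.mul_diagonal, Matrix.diagonal_mul, u.2.2 i, mul_one] at h2
        refine (mul_eq_right₀ ?_).1 h2
        simp only [δ]; split_ifs
        · exact ha0
        · exact one_ne_zero
    choose f hf using hdU
    have hfinj : Function.Injective f := fun u u' h => by
      have h1 := (hf u).symm.trans ((congrArg (fun z : upperUni F n => ι z) h).trans (hf u'))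
      exact Subtype.ext (hinj (mul_left_cancel (mul_right_cancel h1)))
    rw [← (Equiv.ofBijective f (Finite.injective_iff_bijective.1 hfinj)).sum_comp
      (fun u : upperUni F n => (θ : N → ℂ) (e u))]
    refine Finset.sum_congr rfl fun u _ => ?_
    rw [CfsgLib.Clifford.conjFun_apply, Equiv.ofBijective_apply]
    have hconj := isClassFunction (isCharacter_of_irr θ.2) (e (f u)) ⟨g * d⁻¹, hs⟩
    rw [← hconj]
    refine congrArg (θ : N → ℂ) (Subtype.ext ?_)
    show g * ι u * g⁻¹ = g * d⁻¹ * ι (f u) * (g * d⁻¹)⁻¹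
    rw [hf u]; group
  -- evaluate the sum over `U` of the Steinberg character
  have hStU : ∑ u : upperUni F n, (St : GL (Fin n) F → ℂ) (e u) = ((Fintype.card F ^ (n * (n - 1) / 2) : ℕ) : ℂ) := by
    rw [Finset.sum_eq_single (1 : upperUni F n)]
    · rw [← hdeg, ← apply_one (isCharacter_of_irr St.2)]
      simp
    · intro u _ hu
      obtain ⟨k, hk⟩ := IsPGroup.iff_orderOf.1 (isPGroup_upperUni (K := F) (n := n) p) u
      refine hStv _ ?_
      rw [Subgroup.orderOf_coe, e.orderOf_eq, Subgroup.orderOf_coe, hk]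
      refine dvd_pow_self p fun h0 => hu ?_
      rw [← orderOf_eq_one_iff, hk, h0, pow_zero]
    · simp
  let j : upperUni F n →* N := e.toMonoidHom.comp (upperUni F n).subtype
  obtain ⟨a, ha⟩ := classInner_characters_nat (CfsgLib.Clifford.isCharacter_comp (isCharacter_of_irr θ.2) j)
    (isCharacter_of_irr (isIrrCharacter_one (G := upperUni F n)))
  rw [classInner_one, inv_mul_eq_iff_eq_mul₀ (Nat.cast_ne_zero.2 Nat.card_pos.ne')] at ha
  have hcard : Nat.card (upperUni F n) = Fintype.card F ^ (n * (n - 1) / 2) := by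
    obtain ⟨P, hP⟩ := exists_sylow_eq_upperUni (K := F) (n := n) p
    obtain ⟨Q⟩ : Nonempty (Sylow p (GL (Fin n) F)) := inferInstance
    rw [← hP, P.card_eq_multiplicity, ← CfsgLib.SLn.card_sylow_GL F p n Q, Q.card_eq_multiplicity,
      ← CfsgLib.SL2.card_SL_mul n (by omega), Nat.factorization_mul Nat.card_pos.ne'
        (by have := Fintype.one_lt_card (α := F); omega), Finsupp.add_apply,
      Nat.factorization_eq_zero_of_not_dvd (n := Fintype.card F - 1), add_zero]
    intro hdvd
    have h2 : ((Fintype.card F - 1 : ℕ) : F) = 0 := (CharP.cast_eq_zero_iff F p _).2 hdvd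
    rw [Nat.cast_sub Fintype.card_pos, FiniteField.cast_card_eq_zero, Nat.cast_one, zero_sub, neg_eq_zero] at h2
    exact one_ne_zero h2
  have htot : (Nat.card (upperUni F n) : ℂ) = (c : ℂ) * (orb.card : ℂ) * ((Nat.card (upperUni F n) : ℂ) * a) := by
    conv_lhs => rw [hcard, ← hStU]
    simp only [hres]
    rw [← Finset.mul_sum, Finset.sum_comm, Finset.sum_congr rfl hsumU, Finset.sum_const, nsmul_eq_mul, ← mul_assoc,
      ← ha]
    rfl
  have hone : c * orb.card * a = 1 := by
    have hne : (Nat.card (upperUni F n) : ℂ) ≠ 0 := Nat.cast_ne_zero.2 Nat.card_pos.ne'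
    have h2 : ((c * orb.card * a : ℕ) : ℂ) = 1 := by
      apply mul_left_cancel₀ hne
      rw [mul_one]
      conv_rhs => rw [htot]
      push_cast; ring
    exact_mod_cast h2
  obtain ⟨hck, -⟩ := mul_eq_one.1 hone
  obtain ⟨hc1, hk1⟩ := mul_eq_one.1 hck
  obtain ⟨φ₀, hφ₀⟩ := Finset.card_eq_one.1 hk1
  have hθorb : (θ : N → ℂ) ∈ orb := Finset.mem_image.2 ⟨1, Finset.mem_univ _, CfsgLib.Clifford.conjFun_one _⟩
  rw [hφ₀, Finset.mem_singleton] at hθorb
  have hθSt : ∀ x : N, (θ : N → ℂ) x = (St : GL (Fin n) F → ℂ) x := fun x => by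
    rw [hres x, hc1, Nat.cast_one, one_mul, hφ₀, Finset.sum_singleton, hθorb]
  refine ⟨⟨_, CfsgLib.CharBasics.irr_comp_of_surjective θ.2 e.toMonoidHom e.surjective⟩, fun g hg => ?_,
    fun z hz => ?_⟩
  · show (θ : N → ℂ) (e g) = 0
    rw [hθSt]
    refine hStv _ ?_
    rwa [Subgroup.orderOf_coe, e.orderOf_eq]
  · show (θ : N → ℂ) (e z) = (θ : N → ℂ) (e 1)
    rw [hθSt, hθSt, map_one, OneMemClass.coe_one]
    obtain ⟨r, -, hr⟩ := Matrix.SpecialLinearGroup.mem_center_iff.1 hz
    refine unipotent_central ?_ fun i j h => ?_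
    · rw [Subgroup.mem_center_iff]
      intro g
      refine Units.ext ?_
      show g.1 * z.1 = z.1 * g.1
      rw [← hr]
      exact ((Matrix.scalar_commute r (Commute.all r) g.1).eq).symm
    · show z.1 i j = 0
      rw [← hr]
      exact Matrix.diagonal_apply_ne _ h.ne'

/-- An irreducible character of `SL_n` that vanishes at every `p`-singular element exists. -/
theorem exists_vanish (hn : 2 ≤ n) (hM : IsPModular p M) :
    ∃ χ : IrrCharacter (Matrix.SpecialLinearGroup (Fin n) F), Vanish p χ :=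
  (exists_vanish_central hn hM).imp fun _ h => h.1

end CfsgLib.SLBlocks
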