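import Cfsg.Agent.SLBlocks.BigCell
import Cfsg.Agent.IndFun.Basic
import Cfsg.Agent.CharBasics.Induced
import Cfsg.Agent.CharBasics.Extra
import Cfsg.Agent.Clifford.LinChar
import Cfsg.Agent.SLn.Card

/-!
# At most one irreducible character of `SL_n` vanishes on all `p`-singular elements

Such a character is the generic constituent of the character induced from the trivial character of the Borel
subgroup.
-/

set_option autoImplicit false
set_option linter.unusedSectionVars false

namespace CfsgLib.SLBlocks

open Matrix Cfsg CfsgLib.SLn.Unip CfsgLib.CharBasics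
open scoped ComplexConjugate

variable {F : Type*} [Field F] [Fintype F] {n : ℕ}

local notation "SL" => Matrix.SpecialLinearGroup (Fin n) F

variable [Fintype (Matrix.SpecialLinearGroup (Fin n) F)] [Fintype (borel F n)] [Fintype (upperUni F n)] [Fintype (torus F n)]

/-- The linear character of the Borel subgroup belonging to a character of the torus. -/
noncomputable def lam (μ : torus F n →* ℂˣ) : borel F n → ℂ := fun b => ((μ (dg F n b) : ℂˣ) : ℂ)

theorem isCharacter_lam (μ : torus F n →* ℂˣ) : IsCharacter (borel F n) (lam μ) :=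
  CfsgLib.Clifford.isCharacter_of_hom ((Units.coeHom ℂ).comp (μ.comp (dg F n)))

theorem isCharacter_psi : IsCharacter (upperUni F n) (fun u => psi F n u) :=
  CfsgLib.Clifford.isCharacter_of_hom (psi F n)

variable (p : ℕ) [Fact p.Prime] [CharP F p]

include p in
/-- The multiplicity of the regular character of `U` in an induced linear character is at most one. -/
theorem whittaker (μ : torus F n →* ℂˣ) :
    ∃ N : ℕ, N ≤ Nat.card (upperUni F n) * Nat.card (borel F n) ∧
      classInner (fun u : upperUni F n => indFun (borel F n) (lam μ) (u : SL)) (fun u => psi F n u) =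
        ((Nat.card (upperUni F n) : ℂ) * Nat.card (borel F n))⁻¹ * N := by
  classical
  set good := Finset.univ.filter fun x : SL =>
    ¬ ∃ u : upperUni F n, x⁻¹ * (u : SL) * x ∈ borel F n ∧ psi F n u ≠ 1 with hgood
  refine ⟨good.card, ?_, ?_⟩
  · rcases good.eq_empty_or_nonempty with h | ⟨x₀, hx₀⟩
    · rw [h]; exact Nat.zero_le _
    · have hG : ∀ {x : SL}, x ∈ good → Good F n x := fun {x} hx =>
        (dichotomy x).resolve_left (Finset.mem_filter.1 hx).2
      have hsub : good ⊆ (Finset.univ : Finset (upperUni F n × borel F n)).image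
          fun z => (z.1 : SL) * x₀ * (z.2 : SL) := fun x hx => by
        obtain ⟨u, hu, b, hb, rfl⟩ := good_eq (hG hx) (hG hx₀)
        exact Finset.mem_image.2 ⟨(⟨u, hu⟩, ⟨b, hb⟩), Finset.mem_univ _, rfl⟩
      refine (Finset.card_le_card hsub).trans (Finset.card_image_le.trans ?_)
      rw [Finset.card_univ, Fintype.card_prod, Nat.card_eq_fintype_card, Nat.card_eq_fintype_card]
  · have hin : ∀ x : SL, ∑ u : upperUni F n,
        extendByZero (borel F n) (lam μ) (x⁻¹ * (u : SL) * x) * conj (psi F n u) = if x ∈ good then 1 else 0 := by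
      intro x
      have hone : ∀ u : upperUni F n, ∀ h : x⁻¹ * (u : SL) * x ∈ borel F n,
          lam μ ⟨_, h⟩ = 1 := by
        intro u h
        obtain ⟨k, hk⟩ := isPGroup_upperUni (K := F) (n := n) p u
        have hU := mem_upperUni_of_pow (p := p) h k (by
          have hk' : (u : SL) ^ p ^ k = 1 := congrArg Subtype.val hk
          have := conj_pow (i := p ^ k) (a := x⁻¹) (b := (u : SL))
          rw [inv_inv] at this
          rw [this, hk', mul_one, inv_mul_cancel])
        rw [lam, (dg_eq_one_iff ⟨_, h⟩).2 hU, map_one, Units.val_one]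
      set S := Finset.univ.filter fun u : upperUni F n => x⁻¹ * (u : SL) * x ∈ borel F n with hS
      rw [← Finset.sum_subset (Finset.subset_univ S) (fun u _ hu => by
          rw [CfsgLib.IndFun.extendByZero_not_mem _ (fun h => hu (Finset.mem_filter.2 ⟨Finset.mem_univ _, h⟩)),
            zero_mul]),
        Finset.sum_congr rfl (g := fun u => conj (psi F n u)) (fun u hu => by
          rw [CfsgLib.IndFun.extendByZero_mem _ (Finset.mem_filter.1 hu).2, hone, one_mul])]
      by_cases hx : x ∈ good
      · rw [if_pos hx, show S = {1} from Finset.eq_singleton_iff_unique_mem.2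
          ⟨Finset.mem_filter.2 ⟨Finset.mem_univ _, by simp [one_mem]⟩,
            fun u hu => good_inter ((dichotomy x).resolve_left (Finset.mem_filter.1 hx).2) (Finset.mem_filter.1 hu).2⟩,
          Finset.sum_singleton, map_one, map_one]
      · rw [if_neg hx]
        obtain ⟨u₀, hu₀, hne⟩ : ∃ u : upperUni F n, x⁻¹ * (u : SL) * x ∈ borel F n ∧ psi F n u ≠ 1 := by
          by_contra h
          exact hx (Finset.mem_filter.2 ⟨Finset.mem_univ _, h⟩)
        have hshift : ∑ u ∈ S, conj (psi F n u) = conj (psi F n u₀) * ∑ u ∈ S, conj (psi F n u) := by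
          rw [Finset.mul_sum]
          refine (Finset.sum_equiv (Equiv.mulLeft u₀) (fun u => ?_) (fun u _ => ?_)).symm
          · simp only [hS, Finset.mem_filter, Finset.mem_univ, true_and, Equiv.coe_mulLeft, Subgroup.coe_mul]
            have e : x⁻¹ * ((u₀ : SL) * (u : SL)) * x = (x⁻¹ * (u₀ : SL) * x) * (x⁻¹ * (u : SL) * x) := by group
            rw [e]
            exact ⟨fun h => mul_mem hu₀ h, fun h => by simpa [mul_assoc] using mul_mem (inv_mem hu₀) h⟩
          · rw [Equiv.coe_mulLeft, map_mul, map_mul]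
        by_contra h
        refine hne ?_
        have h2 := mul_right_cancel₀ h ((one_mul _).trans hshift)
        have := congrArg conj h2
        rw [map_one, Complex.conj_conj] at this
        exact this.symm
    calc _ = (Nat.card (upperUni F n) : ℂ)⁻¹ * ((Nat.card (borel F n) : ℂ)⁻¹ *
          ∑ x : SL, ∑ u : upperUni F n,
            extendByZero (borel F n) (lam μ) (x⁻¹ * (u : SL) * x) * conj (psi F n u)) := by
            rw [classInner_eq]
            congr 1
            rw [Finset.sum_comm, Finset.mul_sum]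
            refine Finset.sum_congr rfl fun u _ => ?_
            rw [indFun, mul_assoc, Finset.sum_mul]
      _ = _ := by
            rw [Finset.sum_congr rfl fun x _ => hin x, Finset.sum_ite_mem, Finset.univ_inter, Finset.sum_const,
              nsmul_eq_mul, mul_one, mul_inv, mul_assoc]

variable {p}
variable (χ : IrrCharacter (Matrix.SpecialLinearGroup (Fin n) F))

/-- Vanishing on the `p`-singular elements. -/
def Vanish (p : ℕ) (χ : IrrCharacter SL) : Prop := ∀ g : SL, p ∣ orderOf g → (χ : SL → ℂ) g = 0

theorem inner_U (hv : Vanish p χ) (f : upperUni F n →* ℂ) :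
    classInner (fun u : upperUni F n => (χ : SL → ℂ) u) (fun u => f u) =
      (χ : SL → ℂ) 1 / Nat.card (upperUni F n) := by
  classical
  rw [classInner_eq, Finset.sum_eq_single 1]
  · simp [div_eq_inv_mul]
  · intro u _ hu
    obtain ⟨k, hk⟩ := IsPGroup.iff_orderOf.1 (isPGroup_upperUni (K := F) (n := n) p) u
    rw [hv _ (by
      rw [Subgroup.orderOf_coe, hk]
      refine dvd_pow_self p fun h0 => hu ?_
      rw [← orderOf_eq_one_iff, hk, h0, pow_zero]), zero_mul]
  · simp

theorem exists_degree (hv : Vanish p χ) :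
    ∃ m : ℕ, 0 < m ∧ charDegree (χ : SL → ℂ) = m * Nat.card (upperUni F n) ∧
      classInner (fun u : upperUni F n => (χ : SL → ℂ) u) (fun u => psi F n u) = m := by
  obtain ⟨m, hm⟩ := classInner_characters_nat
    (CfsgLib.CharBasics.isCharacter_restrict (isCharacter_of_irr χ.2) (upperUni F n)) isCharacter_psi
  have h := inner_U χ hv (psi F n)
  rw [hm, apply_one (isCharacter_of_irr χ.2), eq_div_iff (Nat.cast_ne_zero.2 Nat.card_pos.ne'), ← Nat.cast_mul,
    Nat.cast_inj] at h
  refine ⟨m, Nat.pos_of_ne_zero fun h0 => (charDegree_pos χ.2).ne' ?_, h.symm, hm⟩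
  rw [← h, h0, zero_mul]

/-- The multiplicity of a linear character of the Borel subgroup. -/
noncomputable def amult (μ : torus F n →* ℂˣ) : ℕ :=
  (classInner_characters_nat (CfsgLib.CharBasics.isCharacter_restrict (isCharacter_of_irr χ.2) (borel F n))
    (isCharacter_lam μ)).choose

theorem amult_spec (μ : torus F n →* ℂˣ) :
    classInner (fun b : borel F n => (χ : SL → ℂ) b) (lam μ) = (amult χ μ : ℂ) :=
  (classInner_characters_nat (CfsgLib.CharBasics.isCharacter_restrict (isCharacter_of_irr χ.2) (borel F n))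
    (isCharacter_lam μ)).choose_spec

theorem amult_ind (μ : torus F n →* ℂˣ) :
    classInner (indFun (borel F n) (lam μ)) (χ : SL → ℂ) = (amult χ μ : ℂ) := by
  rw [classInner_comm (χ : SL → ℂ), classInner_indFun' (borel F n) (lam μ) (isClassFunction (isCharacter_of_irr χ.2)),
    amult_spec, Complex.conj_natCast]

include p in
/-- The bound from the regular character of `U`. -/
theorem sum_le_one (μ : torus F n →* ℂˣ) (s : Finset (IrrCharacter SL)) (m : IrrCharacter SL → ℕ)
    (hm : ∀ φ ∈ s, classInner (fun u : upperUni F n => (φ : SL → ℂ) u) (fun u => psi F n u) = m φ) :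
    ∑ φ ∈ s, amult φ μ * m φ ≤ 1 := by
  classical
  haveI : Fintype (IrrCharacter SL) := @Fintype.ofFinite _ finite_irrCharacter
  have hind := isCharacter_indFun (borel F n) (isCharacter_lam μ)
  choose k hk using fun φ : IrrCharacter SL => classInner_characters_nat
    (CfsgLib.CharBasics.isCharacter_restrict (isCharacter_of_irr φ.2) (upperUni F n)) (isCharacter_psi (F := F))
  obtain ⟨N, hN, heq⟩ := whittaker p μ
  have hexp : classInner (fun u : upperUni F n => indFun (borel F n) (lam μ) (u : SL)) (fun u => psi F n u) =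
      ((∑ φ : IrrCharacter SL, amult φ μ * k φ : ℕ) : ℂ) := by
    push_cast
    conv_lhs => rw [classFun_expand (isClassFunction hind)]
    simp only [amult_ind]
    simp only [Finset.sum_apply, Pi.smul_apply, smul_eq_mul, classInner_eq, Finset.sum_mul,
      Finset.mul_sum, mul_assoc]
    rw [Finset.sum_comm]
    refine Finset.sum_congr rfl fun φ _ => ?_
    rw [← hk φ, classInner_eq, Finset.mul_sum, Finset.mul_sum]
    exact Finset.sum_congr rfl fun u _ => by ring
  rw [hexp] at heq
  have hne : ((Nat.card (upperUni F n) : ℂ) * Nat.card (borel F n)) ≠ 0 :=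
    mul_ne_zero (Nat.cast_ne_zero.2 Nat.card_pos.ne') (Nat.cast_ne_zero.2 Nat.card_pos.ne')
  rw [eq_inv_mul_iff_mul_eq₀ hne, ← Nat.cast_mul, ← Nat.cast_mul, Nat.cast_inj] at heq
  have htot : ∑ φ : IrrCharacter SL, amult φ μ * k φ ≤ 1 := by
    by_contra hlt
    have hpos : 0 < Nat.card (upperUni F n) * Nat.card (borel F n) := Nat.mul_pos Nat.card_pos Nat.card_pos
    nlinarith [hN, heq]
  refine le_trans ?_ htot
  refine le_trans (Finset.sum_le_sum fun φ hφ => le_of_eq ?_) (Finset.sum_le_sum_of_subset (Finset.subset_univ s))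
  have : (m φ : ℂ) = k φ := by rw [← hm φ hφ, hk φ]
  rw [Nat.cast_inj.1 this]

/-- The multiplicities of the linear characters add up to that of the trivial character of `U`. -/
theorem sum_amult [Fintype (torus F n →* ℂˣ)] (hv : Vanish p χ) {m : ℕ}
    (hm : charDegree (χ : SL → ℂ) = m * Nat.card (upperUni F n)) :
    ∑ μ : torus F n →* ℂˣ, amult χ μ = m := by
  classical
  have hcardT : Fintype.card (torus F n →* ℂˣ) = Fintype.card (torus F n) :=
    Fintype.card_congr (CommGroup.monoidHom_mulEquiv_of_hasEnoughRootsOfUnity (torus F n) ℂ).some.toEquiv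
  have horth : ∀ t : torus F n, ∑ μ : torus F n →* ℂˣ, conj (((μ t : ℂˣ) : ℂ)) =
      if t = 1 then (Fintype.card (torus F n) : ℂ) else 0 := by
    intro t
    split_ifs with h
    · subst h; simp [hcardT]
    · obtain ⟨φ, hφ⟩ := CommGroup.exists_apply_ne_one_of_hasEnoughRootsOfUnity (torus F n) ℂ h
      set s := ∑ μ : torus F n →* ℂˣ, ((μ t : ℂˣ) : ℂ) with hs
      have hshift : s = ((φ t : ℂˣ) : ℂ) * s := by
        rw [hs, Finset.mul_sum]
        exact (Fintype.sum_equiv (Equiv.mulLeft φ) _ _ fun μ => by simp).symm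
      have h0 : s = 0 := by
        by_contra h1
        exact hφ (Units.ext (mul_right_cancel₀ h1 ((one_mul _).trans hshift)).symm)
      rw [← map_sum, ← hs, h0, map_zero]
  have hcard : Nat.card (borel F n) = Fintype.card (torus F n) * Nat.card (upperUni F n) := by
    rw [← Subgroup.card_mul_index (dg F n).ker, Subgroup.index_ker, MonoidHom.range_eq_top.2 dg_surjective,
      Subgroup.card_top, mul_comm, ← Nat.card_eq_fintype_card]
    congr 1
    exact Nat.card_congr ⟨fun b => ⟨(b.1 : SL), (dg_eq_one_iff b.1).1 b.2⟩,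
      fun u => ⟨⟨u.1, upperUni_le_borel u.2⟩, (dg_eq_one_iff _).2 u.2⟩, fun b => rfl, fun u => rfl⟩
  have h : ((∑ μ : torus F n →* ℂˣ, amult χ μ : ℕ) : ℂ) = (m : ℂ) := by
    rw [Nat.cast_sum]
    simp only [← amult_spec, classInner_eq, lam, ← Finset.mul_sum]
    rw [Finset.sum_comm]
    simp only [← Finset.mul_sum, horth]
    rw [Finset.sum_eq_single (1 : borel F n)]
    · rw [map_one, if_pos rfl, OneMemClass.coe_one, apply_one (isCharacter_of_irr χ.2), hm, hcard]
      have h1 : (Fintype.card (torus F n) : ℂ) ≠ 0 := Nat.cast_ne_zero.2 Fintype.card_ne_zero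
      have h2 : (Nat.card (upperUni F n) : ℂ) ≠ 0 := Nat.cast_ne_zero.2 Nat.card_pos.ne'
      push_cast
      field_simp
    · intro b _ hb
      split_ifs with h
      · have hbU := (dg_eq_one_iff b).1 h
        obtain ⟨k, hk⟩ := IsPGroup.iff_orderOf.1 (isPGroup_upperUni (K := F) (n := n) p) ⟨_, hbU⟩
        rw [hv _ (by
          rw [← Subgroup.orderOf_mk _ hbU, hk]
          refine dvd_pow_self p fun h0 => hb (Subtype.ext ?_)
          have := orderOf_eq_one_iff.1 (hk.trans (by rw [h0, pow_zero]) :
            orderOf (⟨(b : SL), hbU⟩ : upperUni F n) = 1)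
          exact (congrArg Subtype.val this :)), zero_mul]
      · rw [mul_zero]
    · simp
  exact_mod_cast h

/-- Permutation of the torus. -/
def permT (σ : Equiv.Perm (Fin n)) : torus F n →* torus F n where
  toFun t := ⟨fun i => t.1 (σ i), (Equiv.prod_comp σ t.1).trans t.2⟩
  map_one' := Subtype.ext (funext fun i => rfl)
  map_mul' a b := Subtype.ext (funext fun i => rfl)

theorem permT_symm (σ : Equiv.Perm (Fin n)) (t : torus F n) : permT σ (permT σ.symm t) = t :=
  Subtype.ext (funext fun i => by simp [permT])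

/-- The multiplicities are invariant under the symmetric group. -/
theorem amult_perm (hv : Vanish p χ) (μ : torus F n →* ℂˣ) (σ : Equiv.Perm (Fin n)) :
    amult χ (μ.comp (permT σ)) = amult χ μ := by
  classical
  have hcl := isClassFunction (isCharacter_of_irr χ.2)
  have key : (amult χ (μ.comp (permT σ)) : ℂ) = amult χ μ := by
    rw [← amult_spec, ← amult_spec, classInner_eq, classInner_eq]
    simp only [lam]
    rw [sum_borel (p := p) (χ : SL → ℂ) hcl hv (fun t => conj (((μ.comp (permT σ)) t : ℂˣ) : ℂ)),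
      sum_borel (p := p) (χ : SL → ℂ) hcl hv (fun t => conj ((μ t : ℂˣ) : ℂ))]
    congr 1
    refine Fintype.sum_equiv ⟨permT σ, permT σ.symm, fun t => by
      conv_lhs => rw [← σ.symm_symm]
      exact permT_symm σ.symm t, permT_symm σ⟩ _ _ fun t => ?_
    simp only [Equiv.coe_fn_mk, MonoidHom.comp_apply]
    rw [card_centralizing_perm t (permT σ t) σ (fun i => rfl)]
    congr 2
    obtain ⟨c, hc⟩ := isConj_iff.1 (isConj_diag_perm t (permT σ t) σ fun i => rfl)
    rw [← hc, hcl]
  exact_mod_cast key

/-- A torus element with two entries different from one. -/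
def pairT (i j : Fin n) (h : i ≠ j) : Fˣ →* torus F n where
  toFun a := ⟨(Pi.mulSingle i a : Fin n → Fˣ) * (Pi.mulSingle j a⁻¹ : Fin n → Fˣ), by
    show ∏ k, ((Pi.mulSingle i a : Fin n → Fˣ) k * (Pi.mulSingle j a⁻¹ : Fin n → Fˣ) k) = 1
    rw [Finset.prod_mul_distrib, Finset.prod_pi_mulSingle', Finset.prod_pi_mulSingle']
    simp⟩
  map_one' := Subtype.ext (by simp)
  map_mul' a b := Subtype.ext (by
    show (Pi.mulSingle i (a * b) : Fin n → Fˣ) * (Pi.mulSingle j (a * b)⁻¹ : Fin n → Fˣ) = _
    rw [mul_inv, Pi.mulSingle_mul, Pi.mulSingle_mul, mul_mul_mul_comm]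
    rfl)

theorem pairT_val (i j : Fin n) (h : i ≠ j) (a : Fˣ) :
    ((pairT i j h a : torus F n) : Fin n → Fˣ) = (Pi.mulSingle i a : Fin n → Fˣ) * (Pi.mulSingle j a⁻¹ : Fin n → Fˣ) := rfl

theorem hom_eq_one_of_pairs (hn : 0 < n) (μ : torus F n →* ℂˣ) (h : ∀ i j hij a, μ (pairT i j hij a) = 1) :
    μ = 1 := by
  classical
  refine MonoidHom.ext fun t => ?_
  let i₀ : Fin n := ⟨0, hn⟩
  let f : Fin n → torus F n := fun k => if hk : k = i₀ then 1 else pairT k i₀ hk (t.1 k)
  have ht : t = ∏ k, f k := by
    refine Subtype.ext (funext fun j => ?_)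
    rw [SubmonoidClass.coe_finsetProd, Finset.prod_apply, ← Finset.prod_erase_mul _ _ (Finset.mem_univ i₀)]
    have hf0 : f i₀ = 1 := dif_pos rfl
    rw [hf0, OneMemClass.coe_one, Pi.one_apply, mul_one]
    have hterm : ∀ k ∈ Finset.univ.erase i₀, (f k).1 j =
        (if j = k then t.1 k else 1) * (if j = i₀ then (t.1 k)⁻¹ else 1) := fun k hk => by
      simp only [f, dif_neg (Finset.ne_of_mem_erase hk), pairT_val, Pi.mul_apply, Pi.mulSingle_apply]
    rw [Finset.prod_congr rfl hterm, Finset.prod_mul_distrib, Finset.prod_ite_eq]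
    by_cases hj : j = i₀
    · simp only [if_pos hj, Finset.mem_erase, ne_eq, hj, not_true, false_and, if_false, one_mul]
      have h0 := t.2
      change ∏ k, t.1 k = 1 at h0
      rw [← Finset.prod_erase_mul _ _ (Finset.mem_univ i₀)] at h0
      simp only [if_true]
      rw [Finset.prod_inv_distrib]
      exact eq_inv_of_mul_eq_one_right h0
    · simp [hj]
  rw [ht, map_prod, MonoidHom.one_apply]
  refine Finset.prod_eq_one fun k _ => ?_
  by_cases hk : k = i₀
  · simp [f, hk]
  · simp only [f, dif_neg hk]; exact h _ _ _ _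

theorem card_borel_two [Fintype F] :
    Nat.card (borel F 2) = Fintype.card F * (Fintype.card F - 1) := by
  classical
  haveI := Fintype.ofFinite (upperUni F 2)
  have hU : Nat.card (upperUni F 2) = Fintype.card F := by
    have h := card_centralizing (1 : torus F 2)
    have e : {u : upperUni F 2 // (u : Matrix.SpecialLinearGroup (Fin 2) F) * diagSL (1 : torus F 2) =
        diagSL (1 : torus F 2) * u} ≃ upperUni F 2 := Equiv.subtypeUnivEquiv fun u => by
      rw [show diagSL (1 : torus F 2) = 1 from Subtype.ext (by simp [diagSL]), mul_one, one_mul]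
    rw [Nat.card_congr e] at h
    rw [h]
    have : Nat.card {ij : Fin 2 × Fin 2 // ij.1 < ij.2 ∧ (1 : torus F 2).1 ij.1 = (1 : torus F 2).1 ij.2} = 1 := by
      rw [Nat.card_eq_one_iff_unique]
      refine ⟨⟨fun a b => Subtype.ext ?_⟩, ⟨⟨(0, 1), by decide, rfl⟩⟩⟩
      obtain ⟨⟨a1, a2⟩, ha, -⟩ := a
      obtain ⟨⟨b1, b2⟩, hb, -⟩ := b
      simp only [Prod.mk.injEq]
      simp only [Fin.lt_def] at ha hb
      constructor <;> omega
    rw [this, pow_one]
  have hT : Nat.card (torus F 2) = Fintype.card F - 1 := by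
    rw [← Fintype.card_units, ← Nat.card_eq_fintype_card]
    refine Nat.card_congr ⟨fun t => t.1 0, fun a => pairT 0 1 (by decide) a, fun t => ?_, fun a => ?_⟩
    · refine Subtype.ext (funext fun k => ?_)
      have h0 : t.1 0 * t.1 1 = 1 := by
        have := t.2
        change ∏ k, t.1 k = 1 at this
        rwa [Fin.prod_univ_two] at this
      fin_cases k
      · simp [pairT_val]
      · simpa [pairT_val] using (eq_inv_of_mul_eq_one_right h0).symm
    · simp [pairT_val]
  rw [← Subgroup.card_mul_index (dg F 2).ker, Subgroup.index_ker, MonoidHom.range_eq_top.2 dg_surjective,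
    Subgroup.card_top, hT]
  congr 1
  rw [← hU]
  exact Nat.card_congr ⟨fun b => ⟨(b.1 : Matrix.SpecialLinearGroup (Fin 2) F), (dg_eq_one_iff b.1).1 b.2⟩,
    fun u => ⟨⟨u.1, upperUni_le_borel u.2⟩, (dg_eq_one_iff _).2 u.2⟩, fun b => rfl, fun u => rfl⟩

/-- The trivial torus character is the one that occurs, with multiplicity one. -/
theorem amult_one (hn : 2 ≤ n) (hv : Vanish p χ) :
    amult χ (1 : torus F n →* ℂˣ) = 1 ∧
      classInner (fun u : upperUni F n => (χ : SL → ℂ) u) (fun u => psi F n u) = 1 := by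
  classical
  haveI : Fintype (torus F n →* ℂˣ) := Fintype.ofFinite _
  obtain ⟨m, hm0, hdeg, hmψ⟩ := exists_degree χ hv
  have hsum := sum_amult χ hv hdeg
  have hbound : ∀ μ, amult χ μ * m ≤ 1 := fun μ => by
    simpa using sum_le_one (p := p) μ {χ} (fun _ => m) (fun φ hφ => by rw [Finset.mem_singleton.1 hφ]; exact hmψ)
  obtain ⟨μ, hμ⟩ : ∃ μ, amult χ μ ≠ 0 := by
    by_contra h
    push Not at h
    rw [Finset.sum_eq_zero fun μ _ => h μ] at hsum
    omega
  have hm1 : m = 1 := by
    have h := hbound μ
    nlinarith [Nat.pos_of_ne_zero hμ]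
  have hμ1 : amult χ μ = 1 := by
    have h := hbound μ
    rw [hm1, mul_one] at h
    omega
  subst hm1
  refine ⟨?_, by simpa using hmψ⟩
  have huniq : ∀ ν, amult χ ν ≠ 0 → ν = μ := by
    intro ν hν
    by_contra hne
    have := (Finset.add_le_sum (fun i _ => Nat.zero_le (amult χ i)) (Finset.mem_univ ν) (Finset.mem_univ μ) hne).trans_eq
      hsum
    omega
  have hinv : ∀ (σ : Equiv.Perm (Fin n)) t, μ (permT σ t) = μ t := fun σ t =>
    DFunLike.congr_fun (huniq (μ.comp (permT σ)) (by rw [amult_perm χ hv]; exact hμ)) t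
  have hpair : ∀ i j i' j' (hij : i ≠ j) (hij' : i' ≠ j') a, μ (pairT i j hij a) = μ (pairT i' j' hij' a) := by
    intro i j i' j' hij hij' a
    set τ : Equiv.Perm (Fin n) := Equiv.swap i i' with hτ
    set σ : Equiv.Perm (Fin n) := τ.trans (Equiv.swap (τ j) j') with hσ
    have h1 : σ i = i' := by
      rw [hσ, Equiv.trans_apply, show τ i = i' from Equiv.swap_apply_left _ _,
        Equiv.swap_apply_of_ne_of_ne _ hij']
      intro e
      exact hij (τ.injective ((Equiv.swap_apply_left i i').trans e))
    have h2 : σ j = j' := by rw [hσ, Equiv.trans_apply, Equiv.swap_apply_left]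
    rw [← hinv σ (pairT i' j' hij' a)]
    congr 1
    refine Subtype.ext (funext fun k => ?_)
    show ((Pi.mulSingle i a : Fin n → Fˣ) * (Pi.mulSingle j a⁻¹ : Fin n → Fˣ)) k =
      ((Pi.mulSingle i' a : Fin n → Fˣ) * (Pi.mulSingle j' a⁻¹ : Fin n → Fˣ)) (σ k)
    simp only [Pi.mul_apply, Pi.mulSingle_apply, ← h1, ← h2, σ.injective.eq_iff]
  suffices hone : μ = 1 by rw [← hone]; exact hμ1
  refine hom_eq_one_of_pairs (by omega) μ ?_
  rcases Nat.lt_or_ge 2 n with h3 | h2
  · intro i j hij a
    have e01 : (⟨0, by omega⟩ : Fin n) ≠ ⟨1, by omega⟩ := by simp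
    have e12 : (⟨1, by omega⟩ : Fin n) ≠ ⟨2, h3⟩ := by simp
    have e02 : (⟨0, by omega⟩ : Fin n) ≠ ⟨2, h3⟩ := by simp
    have hc : pairT _ _ e01 a * pairT _ _ e12 a = pairT _ _ e02 a := by
      refine Subtype.ext (funext fun k => ?_)
      simp only [Subgroup.coe_mul, pairT_val, Pi.mul_apply, Pi.mulSingle_apply]
      split_ifs <;> simp_all
    have h := congrArg μ hc
    rw [map_mul, hpair _ _ _ _ e12 e01, hpair _ _ _ _ e02 e01, mul_eq_left] at h
    rw [hpair _ _ _ _ hij e01, h]
  · obtain rfl : n = 2 := by omega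
    suffices hone : μ = 1 by intro i j hij a; rw [hone]; rfl
    haveI : Fintype (IrrCharacter (Matrix.SpecialLinearGroup (Fin 2) F)) := @Fintype.ofFinite _ finite_irrCharacter
    have hind := isCharacter_indFun (borel F 2) (isCharacter_lam μ)
    set q := Fintype.card F with hqdef
    have hq1 : 1 < q := Fintype.one_lt_card
    have hdeg1 : indFun (borel F 2) (lam μ) 1 = ((q + 1 : ℕ) : ℂ) := by
      rw [CfsgLib.IndFun.indFun_one_apply, show lam μ 1 = 1 by simp [lam], mul_one, Nat.cast_inj]
      have hG := CfsgLib.SLn.card_SL_eq F 2 (by norm_num)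
      rw [Fin.prod_univ_two, ← Subgroup.card_mul_index (borel F 2), card_borel_two, ← hqdef] at hG
      simp only [Fin.val_zero, Fin.val_one, pow_zero, pow_one] at hG
      have e1 : q ^ 2 - 1 = (q + 1) * (q - 1) := by rw [← Nat.sq_sub_sq]
      have e2 : q ^ 2 - q = q * (q - 1) := by rw [Nat.mul_sub_one, sq]
      rw [e1, e2] at hG
      have hpos : 0 < (q - 1) * (q * (q - 1)) := Nat.mul_pos (by omega) (Nat.mul_pos (by omega) (by omega))
      refine Nat.eq_of_mul_eq_mul_left hpos ?_
      linear_combination hG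
    have hexp := congrFun (classFun_expand (isClassFunction hind)) 1
    rw [Finset.sum_apply, hdeg1] at hexp
    simp only [Pi.smul_apply, smul_eq_mul, amult_ind] at hexp
    have hdeg2 : q + 1 = ∑ φ : IrrCharacter (Matrix.SpecialLinearGroup (Fin 2) F),
        amult φ μ * charDegree (φ : Matrix.SpecialLinearGroup (Fin 2) F → ℂ) := by
      have h2 : ((q + 1 : ℕ) : ℂ) = ((∑ φ : IrrCharacter (Matrix.SpecialLinearGroup (Fin 2) F),
          amult φ μ * charDegree (φ : Matrix.SpecialLinearGroup (Fin 2) F → ℂ) : ℕ) : ℂ) := by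
        rw [hexp, Nat.cast_sum]
        exact Finset.sum_congr rfl fun φ _ => by rw [apply_one (isCharacter_of_irr φ.2), Nat.cast_mul]
      exact_mod_cast h2
    have hU : Nat.card (upperUni F 2) = q := by
      have h := card_borel_two (F := F)
      rw [← Subgroup.card_mul_index (dg F 2).ker, Subgroup.index_ker, MonoidHom.range_eq_top.2 dg_surjective,
        Subgroup.card_top] at h
      have hT : Nat.card (torus F 2) = q - 1 := by
        rw [hqdef, ← Fintype.card_units, ← Nat.card_eq_fintype_card]
        refine Nat.card_congr ⟨fun t => t.1 0, fun a => pairT 0 1 (by decide) a, fun t => ?_, fun a => ?_⟩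
        · refine Subtype.ext (funext fun k => ?_)
          have h0 : t.1 0 * t.1 1 = 1 := by
            have := t.2
            change ∏ k, t.1 k = 1 at this
            rwa [Fin.prod_univ_two] at this
          fin_cases k
          · simp [pairT_val]
          · simpa [pairT_val] using (eq_inv_of_mul_eq_one_right h0).symm
        · simp [pairT_val]
      rw [hT, ← hqdef] at h
      refine Eq.trans ?_ (Nat.eq_of_mul_eq_mul_right (by omega) h)
      exact Nat.card_congr ⟨fun u => ⟨⟨u.1, upperUni_le_borel u.2⟩, (dg_eq_one_iff _).2 u.2⟩,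
        fun b => ⟨(b.1 : Matrix.SpecialLinearGroup (Fin 2) F), (dg_eq_one_iff b.1).1 b.2⟩, fun u => rfl, fun b => rfl⟩
    rw [← Finset.add_sum_erase _ _ (Finset.mem_univ χ), hμ1, hdeg, hU, one_mul, one_mul] at hdeg2
    have hrest : ∑ φ ∈ Finset.univ.erase χ,
        amult φ μ * charDegree (φ : Matrix.SpecialLinearGroup (Fin 2) F → ℂ) = 1 := by omega
    obtain ⟨η, hη, hne⟩ := Finset.exists_ne_zero_of_sum_ne_zero (hrest.trans_ne one_ne_zero)
    have h1 : amult η μ * charDegree (η : Matrix.SpecialLinearGroup (Fin 2) F → ℂ) = 1 := by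
      have := Finset.single_le_sum (f := fun φ : IrrCharacter (Matrix.SpecialLinearGroup (Fin 2) F) =>
        amult φ μ * charDegree (φ : Matrix.SpecialLinearGroup (Fin 2) F → ℂ)) (fun _ _ => Nat.zero_le _) hη
      omega
    obtain ⟨ha, hd⟩ := mul_eq_one.1 h1
    have hηc := isCharacter_of_irr η.2
    -- the product with the conjugate linear character is identically one
    have hall : ∀ b : borel F 2, (η : Matrix.SpecialLinearGroup (Fin 2) F → ℂ) b * conj (lam μ b) = 1 := by
      have hs := amult_spec η μ
      rw [ha, Nat.cast_one, classInner_eq, inv_mul_eq_one₀ (Nat.cast_ne_zero.2 Nat.card_pos.ne')] at hs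
      intro b
      have hnorm : ∀ b : borel F 2, ‖(η : Matrix.SpecialLinearGroup (Fin 2) F → ℂ) b * conj (lam μ b)‖ ≤ 1 := by
        intro b
        rw [norm_mul, Complex.norm_conj]
        have h1 := norm_le hηc (b : Matrix.SpecialLinearGroup (Fin 2) F)
        have h2 := norm_le (isCharacter_lam μ) b
        rw [show charDegree (lam μ) = 1 by simp [charDegree, lam]] at h2
        rw [hd] at h1
        push_cast at h1 h2
        exact mul_le_one₀ h1 (norm_nonneg _) h2
      have hz : ∑ b : borel F 2, (1 - ((η : Matrix.SpecialLinearGroup (Fin 2) F → ℂ) b * conj (lam μ b)).re) = 0 := by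
        rw [Finset.sum_sub_distrib, ← Complex.re_sum, ← hs]
        simp [Nat.card_eq_fintype_card]
      have hb := (Finset.sum_eq_zero_iff_of_nonneg (fun b _ => by
        have := (Complex.re_le_norm _).trans (hnorm b); linarith)).1 hz b (Finset.mem_univ b)
      set z := (η : Matrix.SpecialLinearGroup (Fin 2) F → ℂ) b * conj (lam μ b)
      have hn := hnorm b
      have hsq : Complex.normSq z ≤ 1 := by
        rw [Complex.normSq_eq_norm_sq]; exact pow_le_one₀ (norm_nonneg z) hn
      rw [Complex.normSq_apply] at hsq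
      have hre : z.re = 1 := by linarith
      rw [hre] at hsq
      exact Complex.ext (by simp [hre]) (by simp only [Complex.one_im]; nlinarith)
    have hkerU : ∀ u ∈ upperUni F 2, u ∈ charKer _ hηc := by
      intro u hu
      have h := hall ⟨u, upperUni_le_borel hu⟩
      rw [lam, (dg_eq_one_iff _).2 hu, map_one, Units.val_one, map_one, mul_one] at h
      rw [mem_charKer, h, apply_one hηc, hd, Nat.cast_one]
    have hker : charKer _ hηc = ⊤ := by
      rw [eq_top_iff, ← CfsgLib.SLn.closure_transvections, Subgroup.closure_le]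
      rintro g ⟨i, j, hij, c, rfl⟩
      rcases lt_or_gt_of_ne hij with hlt | hgt
      · exact hkerU _ (transvection_mem hlt c)
      · obtain ⟨rfl, rfl⟩ : i = 1 ∧ j = 0 := by
          constructor <;> omega
        let w : Matrix.SpecialLinearGroup (Fin 2) F := ⟨!![0, 1; -1, 0], by simp [Matrix.det_fin_two]⟩
        have hup := (charKer_normal hηc).conj_mem _ (hkerU _ (transvection_mem (show (0 : Fin 2) < 1 by decide) (-c))) w
        suffices e : Matrix.SpecialLinearGroup.transvection hij c * w =
            w * Matrix.SpecialLinearGroup.transvection (show (0 : Fin 2) < 1 by decide).ne (-c) by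
          rw [SetLike.mem_coe, eq_mul_inv_of_mul_eq e]
          exact hup
        refine Subtype.ext ?_
        show (Matrix.SpecialLinearGroup.transvection hij c).1 * w.1 =
          w.1 * (Matrix.SpecialLinearGroup.transvection _ (-c)).1
        rw [Matrix.SpecialLinearGroup.transvection_coe, Matrix.SpecialLinearGroup.transvection_coe]
        ext a b
        fin_cases a <;> fin_cases b <;> simp [w, Matrix.mul_apply, Fin.sum_univ_two, Matrix.single_apply,
          Matrix.one_apply]
    refine MonoidHom.ext fun t => Units.ext ?_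
    obtain ⟨b, rfl⟩ := dg_surjective t
    have h := hall b
    have hb : (b : Matrix.SpecialLinearGroup (Fin 2) F) ∈ charKer _ hηc := hker ▸ Subgroup.mem_top _
    rw [(mem_charKer hηc _).1 hb, apply_one hηc, hd, Nat.cast_one, one_mul] at h
    have := congrArg conj h
    rw [Complex.conj_conj, map_one] at this
    rw [MonoidHom.one_apply, Units.val_one]
    exact this

/-- Uniqueness. -/
theorem eq_of_vanish (hn : 2 ≤ n) {χ ψ : IrrCharacter SL} (hχ : Vanish p χ) (hψ : Vanish p ψ) : χ = ψ := by
  classical
  by_contra hne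
  obtain ⟨a1, a2⟩ := amult_one χ hn hχ
  obtain ⟨b1, b2⟩ := amult_one ψ hn hψ
  have h := sum_le_one (p := p) 1 {χ, ψ} (fun _ => 1) (fun φ hφ => by
    rcases Finset.mem_insert.1 hφ with rfl | h
    · simpa using a2
    · rw [Finset.mem_singleton.1 h]; simpa using b2)
  rw [Finset.sum_pair hne, a1, b1] at h
  norm_num at h

end CfsgLib.SLBlocks
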